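import Cfsg.Agent.Helper28.J2VO.OrbData

set_option autoImplicit false

namespace Cfsg.Agent.Helper28.J2VO

theorem orb1_0 : Cfsg.Agent.Helper28.ptChunk (Cfsg.Agent.Helper28.orbPt Cfsg.Agent.Helper28.J2V.T 315 Cfsg.Agent.Helper28.J2V.subL 10 ov1 op1 otp1 otw1) 10 256 0 = true := by decide +kernel

end Cfsg.Agent.Helper28.J2VO
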