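import Cfsg.Agent.Helper28.J2VO.OrbData

set_option autoImplicit false

namespace Cfsg.Agent.Helper28.J2VO

theorem orb2_0 : Cfsg.Agent.Helper28.ptChunk (Cfsg.Agent.Helper28.orbPt Cfsg.Agent.Helper28.J2V.T 315 Cfsg.Agent.Helper28.J2V.subL 32 ov2 op2 otp2 otw2) 32 256 0 = true := by decide +kernel

end Cfsg.Agent.Helper28.J2VO
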