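import Cfsg.Agent.Helper28.TCO
import Cfsg.Agent.Helper28.J2V.Cert
import Cfsg.Agent.Helper28.J2VO.Orb1_0
import Cfsg.Agent.Helper28.J2VO.Orb2_0
import Cfsg.Agent.Helper28.J2VO.Orb3_0
import Cfsg.Agent.Helper28.J2VO.Orb4_0
import Cfsg.Agent.Helper28.J2VO.Orb5_0

set_option autoImplicit false

namespace Cfsg.Agent.Helper28.J2VO

theorem orb1_all : ∀ t, t < 10 → Cfsg.Agent.Helper28.orbPt Cfsg.Agent.Helper28.J2V.T 315 Cfsg.Agent.Helper28.J2V.subL 10 ov1 op1 otp1 otw1 t = true :=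
  Cfsg.Agent.Helper28.pts_of_chunks _ 10 256 1 (by decide) (by decide)
    (Cfsg.Agent.Helper28.allLt_succ _ 0 (Cfsg.Agent.Helper28.allLt_zero _) orb1_0)

theorem ov1_lt : ov1 0 < 315 := by decide +kernel

theorem orb2_all : ∀ t, t < 32 → Cfsg.Agent.Helper28.orbPt Cfsg.Agent.Helper28.J2V.T 315 Cfsg.Agent.Helper28.J2V.subL 32 ov2 op2 otp2 otw2 t = true :=
  Cfsg.Agent.Helper28.pts_of_chunks _ 32 256 1 (by decide) (by decide)
    (Cfsg.Agent.Helper28.allLt_succ _ 0 (Cfsg.Agent.Helper28.allLt_zero _) orb2_0)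

theorem ov2_lt : ov2 0 < 315 := by decide +kernel

theorem orb3_all : ∀ t, t < 32 → Cfsg.Agent.Helper28.orbPt Cfsg.Agent.Helper28.J2V.T 315 Cfsg.Agent.Helper28.J2V.subL 32 ov3 op3 otp3 otw3 t = true :=
  Cfsg.Agent.Helper28.pts_of_chunks _ 32 256 1 (by decide) (by decide)
    (Cfsg.Agent.Helper28.allLt_succ _ 0 (Cfsg.Agent.Helper28.allLt_zero _) orb3_0)

theorem ov3_lt : ov3 0 < 315 := by decide +kernel

theorem orb4_all : ∀ t, t < 80 → Cfsg.Agent.Helper28.orbPt Cfsg.Agent.Helper28.J2V.T 315 Cfsg.Agent.Helper28.J2V.subL 80 ov4 op4 otp4 otw4 t = true :=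
  Cfsg.Agent.Helper28.pts_of_chunks _ 80 256 1 (by decide) (by decide)
    (Cfsg.Agent.Helper28.allLt_succ _ 0 (Cfsg.Agent.Helper28.allLt_zero _) orb4_0)

theorem ov4_lt : ov4 0 < 315 := by decide +kernel

theorem orb5_all : ∀ t, t < 160 → Cfsg.Agent.Helper28.orbPt Cfsg.Agent.Helper28.J2V.T 315 Cfsg.Agent.Helper28.J2V.subL 160 ov5 op5 otp5 otw5 t = true :=
  Cfsg.Agent.Helper28.pts_of_chunks _ 160 256 1 (by decide) (by decide)
    (Cfsg.Agent.Helper28.allLt_succ _ 0 (Cfsg.Agent.Helper28.allLt_zero _) orb5_0)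

theorem ov5_lt : ov5 0 < 315 := by decide +kernel

end Cfsg.Agent.Helper28.J2VO
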